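import Mathlib

/-!
Ovals in finite projective planes of odd order: tangents, Qvist's theorem and counts of fixed
points and lines of sets of collineations.
-/

set_option autoImplicit false
set_option linter.unusedSectionVars false

noncomputable section

namespace H52.Oval

open Configuration Finset
open scoped Classical

variable {P L : Type*} [Membership P L] [Fintype P] [Fintype L] [ProjectivePlane P L]

theorem uq {p q : P} {l m : L} (h1 : p ∈ l) (h2 : q ∈ l) (h3 : p ∈ m) (h4 : q ∈ m) :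
    p = q ∨ l = m := Nondegenerate.eq_or_eq h1 h2 h3 h4

theorem line_eq {p q : P} {l m : L} (hpq : p ≠ q) (h1 : p ∈ l) (h2 : q ∈ l) (h3 : p ∈ m)
    (h4 : q ∈ m) : l = m := (uq h1 h2 h3 h4).resolve_left hpq

theorem point_eq {p q : P} {l m : L} (hlm : l ≠ m) (h1 : p ∈ l) (h2 : q ∈ l) (h3 : p ∈ m)
    (h4 : q ∈ m) : p = q := (uq h1 h2 h3 h4).resolve_right hlm

variable (L) in
theorem card_lns (p : P) : #{l : L | p ∈ l} = ProjectivePlane.order P L + 1 := by
  rw [← ProjectivePlane.lineCount_eq L p, lineCount, Nat.card_eq_fintype_card, Fintype.card_subtype]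

theorem card_pts (l : L) : #{p : P | p ∈ l} = ProjectivePlane.order P L + 1 := by
  rw [← ProjectivePlane.pointCount_eq P l, pointCount, Nat.card_eq_fintype_card,
    Fintype.card_subtype]

variable (L) in
theorem exists_line (p q : P) : ∃ l : L, p ∈ l ∧ q ∈ l := by
  by_cases h : p = q
  · subst h
    obtain ⟨l, hl⟩ := card_pos.1 (show 0 < #{l : L | p ∈ l} by rw [card_lns]; omega)
    exact ⟨l, by simpa using hl, by simpa using hl⟩
  · exact ⟨_, HasLines.mkLine_ax h⟩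

variable (P) in
theorem exists_point (l m : L) : ∃ p : P, p ∈ l ∧ p ∈ m := by
  by_cases h : l = m
  · subst h
    obtain ⟨p, hp⟩ := card_pos.1 (show 0 < #{p : P | p ∈ l} by rw [card_pts]; omega)
    exact ⟨p, by simpa using hp, by simpa using hp⟩
  · exact ⟨_, HasPoints.mkPoint_ax h⟩

variable (L) in
/-- A line through two points. -/
def jn (p q : P) : L := (exists_line L p q).choose

variable (P) in
/-- A point on two lines. -/
def mt (l m : L) : P := (exists_point P l m).choose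

theorem jn_l (p q : P) : p ∈ jn L p q := (exists_line L p q).choose_spec.1
theorem jn_r (p q : P) : q ∈ jn L p q := (exists_line L p q).choose_spec.2
theorem mt_l (l m : L) : mt P l m ∈ l := (exists_point P l m).choose_spec.1
theorem mt_r (l m : L) : mt P l m ∈ m := (exists_point P l m).choose_spec.2

/-- `l` is a tangent to `O` at `X`. -/
def Tan (O : Finset P) (X : P) (l : L) : Prop := X ∈ l ∧ ∀ Y ∈ O, Y ∈ l → Y = X

variable (L) in
/-- The tangent at `X`. -/
def tg (O : Finset P) (X : P) : L := if h : ∃ l : L, Tan O X l then h.choose else jn L X X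

/-- Fixed by all elements of `s`. -/
def Fx {G α : Type*} [SMul G α] (s : Set G) (x : α) : Prop := ∀ g ∈ s, g • x = x

variable (L) in
/-- An invariant oval in a plane of odd order. -/
structure Ov (G : Type*) [Group G] [MulAction G P] [MulAction G L] (O : Finset P) : Prop where
  odd : Odd (ProjectivePlane.order P L)
  coll : ∀ (g : G) (p : P) (l : L), g • p ∈ g • l ↔ p ∈ l
  card : O.card = ProjectivePlane.order P L + 1
  arc : ∀ l : L, ∀ p ∈ O, ∀ q ∈ O, ∀ r ∈ O, p ∈ l → q ∈ l → r ∈ l → p = q ∨ p = r ∨ q = r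
  inv : ∀ g : G, ∀ p ∈ O, g • p ∈ O

variable {G : Type*} [Group G] [MulAction G P] [MulAction G L] {O : Finset P}

theorem fx_insert {α : Type*} [SMul G α] {s : Set G} {t : G} {x : α} :
    Fx (insert t s) x ↔ t • x = x ∧ Fx s x := by
  simp [Fx]

theorem fx_empty {α : Type*} [SMul G α] (x : α) : Fx (∅ : Set G) x := fun _ h => h.elim

theorem fx_single {α : Type*} [SMul G α] {t : G} {x : α} : Fx ({t} : Set G) x ↔ t • x = x := by
  simp [Fx]

namespace Ov

variable (h : Ov L G O)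
include h

theorem three_le : 3 ≤ ProjectivePlane.order P L := by
  have h1 := ProjectivePlane.one_lt_order P L
  obtain ⟨k, hk⟩ := h.odd
  omega

theorem smul_mem (g : G) {p : P} {l : L} (hp : p ∈ l) : g • p ∈ g • l := (h.coll g p l).2 hp

theorem inv' {g : G} {p : P} (hp : g • p ∈ O) : p ∈ O := by
  simpa using h.inv g⁻¹ _ hp

theorem card_inter (l : L) : #{X ∈ O | X ∈ l} ≤ 2 := by
  by_contra hc
  obtain ⟨a, ha, b, hb, c, hc, h1, h2, h3⟩ := two_lt_card.1 (not_le.1 hc)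
  simp only [mem_filter] at ha hb hc
  rcases h.arc l a ha.1 b hb.1 c hc.1 ha.2 hb.2 hc.2 with e | e | e <;> contradiction

theorem eq_of_three {l : L} {X Y Z : P} (hX : X ∈ O) (hY : Y ∈ O) (hZ : Z ∈ O) (h1 : X ∈ l)
    (h2 : Y ∈ l) (h3 : Z ∈ l) (hXY : X ≠ Y) : Z = X ∨ Z = Y := by
  rcases h.arc l X hX Y hY Z hZ h1 h2 h3 with e | e | e
  · contradiction
  · exact Or.inl e.symm
  · exact Or.inr e.symm

theorem existsUnique_tan {X : P} (hX : X ∈ O) : ∃! l : L, Tan O X l := by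
  have hi : Set.InjOn (fun Y => jn L X Y) (O.erase X : Set P) := fun Y hY Z hZ e => by
    simp only [coe_erase, Set.mem_sdiff, mem_coe, Set.mem_singleton_iff] at hY hZ
    simp only at e
    rcases h.eq_of_three hX hY.1 hZ.1 (jn_l X Y) (jn_r X Y) (e ▸ jn_r X Z) (Ne.symm hY.2) with e' | e'
    · exact absurd e' hZ.2
    · exact e'.symm
  have hs : (O.erase X).image (fun Y => jn L X Y) ⊆ ({l : L | X ∈ l} : Finset L) := by
    intro l hl
    obtain ⟨Y, -, rfl⟩ := mem_image.1 hl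
    simpa using jn_l X Y
  have hc := card_sdiff_of_subset hs
  rw [card_lns, card_image_of_injOn hi, card_erase_of_mem hX, h.card] at hc
  obtain ⟨l, hl⟩ := card_eq_one.1 (hc.trans (by omega))
  have key : ∀ m : L, Tan O X m ↔ m = l := fun m => by
    rw [← mem_singleton, ← hl, mem_sdiff]
    simp only [mem_filter, mem_univ, true_and, mem_image, mem_erase, not_exists, not_and, Tan]
    refine and_congr_right fun hm => ⟨fun h1 Y hY e => hY.1 (h1 Y hY.2 (e ▸ jn_r X Y)),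
      fun h1 Y hY hYm => by_contra fun hne => h1 Y ⟨hne, hY⟩ ?_⟩
    exact line_eq (Ne.symm hne) (jn_l X Y) (jn_r X Y) hm hYm
  exact ⟨l, (key l).2 rfl, fun m hm => (key m).1 hm⟩

theorem tan_tg {X : P} (hX : X ∈ O) : Tan O X (tg L O X) := by
  have := (h.existsUnique_tan hX).exists
  rw [tg, dif_pos this]
  exact this.choose_spec

theorem mem_tg {X : P} (hX : X ∈ O) : X ∈ tg L O X := (h.tan_tg hX).1

theorem eq_of_mem_tg {X Y : P} (hX : X ∈ O) (hY : Y ∈ O) (hm : Y ∈ tg L O X) : Y = X :=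
  (h.tan_tg hX).2 Y hY hm

theorem eq_tg {X : P} (hX : X ∈ O) {l : L} (hl : Tan O X l) : l = tg L O X :=
  (h.existsUnique_tan hX).unique hl (h.tan_tg hX)

theorem tg_or {X : P} (hX : X ∈ O) {l : L} (hl : X ∈ l) :
    l = tg L O X ∨ ∃ Y ∈ O, Y ≠ X ∧ Y ∈ l := by
  by_contra hc
  push Not at hc
  exact hc.1 (h.eq_tg hX ⟨hl, fun Y hY hm => by_contra fun hne => hc.2 Y hY hne hm⟩)

theorem tg_ne {X Y : P} (hX : X ∈ O) (hY : Y ∈ O) (hne : X ≠ Y) : tg L O X ≠ tg L O Y := fun e =>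
  hne (h.eq_of_mem_tg hY hX (e ▸ h.mem_tg hX))

theorem smul_tg (g : G) {X : P} (hX : X ∈ O) : g • tg L O X = tg L O (g • X) := by
  refine h.eq_tg (h.inv g X hX) ⟨h.smul_mem g (h.mem_tg hX), fun Y hY hm => ?_⟩
  have h1 : g⁻¹ • Y ∈ tg L O X := by simpa using h.smul_mem g⁻¹ hm
  rw [← h.eq_of_mem_tg hX (h.inv _ _ hY) h1, smul_inv_smul]

theorem exists_tg_two {X Y : P} (hX : X ∈ O) (hY : Y ∈ tg L O X) (hne : Y ≠ X) :
    ∃ X' ∈ O, X' ≠ X ∧ Y ∈ tg L O X' := by
  by_contra hc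
  push Not at hc
  have hYO : Y ∉ O := fun hYO => hne (h.eq_of_mem_tg hX hYO hY)
  have key : ∀ Z ∈ O.erase X, ∃ W ∈ O.erase X, W ≠ Z ∧ W ∈ jn L Y Z := fun Z hZ => by
    rw [mem_erase] at hZ
    rcases h.tg_or hZ.2 (jn_r (L := L) Y Z) with e | ⟨W, hW, h1, h2⟩
    · exact absurd (e ▸ jn_l Y Z) (hc Z hZ.2 hZ.1)
    · refine ⟨W, mem_erase.2 ⟨fun e => hZ.1 ?_, hW⟩, h1, h2⟩
      subst e
      exact h.eq_of_mem_tg hX hZ.2
        (line_eq hne (jn_l Y Z) h2 hY (h.mem_tg hX) ▸ jn_r Y Z)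
  choose σ h1 h2 h3 using key
  have h4 := sum_involution (s := O.erase X) (f := fun _ => (1 : ZMod 2)) σ
    (fun _ _ => by decide) (fun a ha _ => h2 a ha) h1 fun a ha => by
      have hb := mem_erase.1 (h1 a ha)
      have hc' := mem_erase.1 (h1 _ (h1 a ha))
      have e : jn L Y (σ a ha) = jn L Y a :=
        line_eq (fun e : Y = σ a ha => hYO (e ▸ hb.2)) (jn_l _ _) (jn_r _ _) (jn_l _ _) (h3 a ha)
      rcases h.eq_of_three (mem_erase.1 ha).2 hb.2 hc'.2 (jn_r Y a) (h3 a ha)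
        (e ▸ h3 _ (h1 a ha)) (h2 a ha).symm with e' | e'
      · exact e'
      · exact absurd e' (h2 _ _)
  rw [sum_const, card_erase_of_mem hX, h.card, Nat.add_sub_cancel, nsmul_one,
    ZMod.natCast_eq_zero_iff_even] at h4
  exact Nat.not_even_iff_odd.2 h.odd h4

/-- Qvist's theorem. -/
theorem tg_three {X Y Z A : P} (hX : X ∈ O) (hY : Y ∈ O) (hZ : Z ∈ O) (h1 : A ∈ tg L O X)
    (h2 : A ∈ tg L O Y) (h3 : A ∈ tg L O Z) (hXY : X ≠ Y) : Z = X ∨ Z = Y := by
  by_contra hc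
  push Not at hc
  have key := inj_on_of_surj_on_of_card_le (s := O.erase X)
    (t := (({p : P | p ∈ tg L O X} : Finset P).erase X))
    (fun W _ => mt P (tg L O X) (tg L O W))
    (fun W hW => by
      rw [mem_erase] at hW ⊢
      refine ⟨fun e => hW.1 (h.eq_of_mem_tg hW.2 hX (e ▸ mt_r _ _)).symm, ?_⟩
      simpa using mt_l _ _)
    (fun B hB => by
      rw [mem_erase] at hB
      have hB2 : B ∈ tg L O X := by simpa using hB.2
      obtain ⟨W, hW, hne, hm⟩ := h.exists_tg_two hX hB2 hB.1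
      exact ⟨W, mem_erase.2 ⟨hne, hW⟩,
        point_eq (h.tg_ne hX hW hne.symm) (mt_l _ _) hB2 (mt_r _ _) hm⟩)
    (by
      rw [card_erase_of_mem hX, card_erase_of_mem (by simpa using h.mem_tg hX), card_pts, h.card])
    (mem_erase.2 ⟨hc.1, hZ⟩) (mem_erase.2 ⟨hXY.symm, hY⟩)
  refine hc.2 (key ?_)
  rw [point_eq (h.tg_ne hX hZ hc.1.symm) (mt_l _ _) h1 (mt_r _ _) h3,
    point_eq (h.tg_ne hX hY hXY) (mt_l _ _) h1 (mt_r _ _) h2]

theorem smul_line {g : G} {p q : P} {l : L} (hne : p ≠ q) (hp : p ∈ l) (hq : q ∈ l)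
    (h1 : g • p ∈ l) (h2 : g • q ∈ l) : g • l = l :=
  line_eq (fun e => hne (MulAction.injective g e)) (h.smul_mem g hp) (h.smul_mem g hq) h1 h2

theorem smul_point {g : G} {p : P} {l m : L} (hne : l ≠ m) (hl : p ∈ l) (hm : p ∈ m)
    (h1 : p ∈ g • l) (h2 : p ∈ g • m) : g • p = p :=
  point_eq (fun e => hne (MulAction.injective g e)) (h.smul_mem g hl) h1 (h.smul_mem g hm) h2

variable {s : Set G}

theorem fx_line {p q : P} {l : L} (hne : p ≠ q) (hp : p ∈ l) (hq : q ∈ l) (h1 : Fx s p)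
    (h2 : Fx s q) : Fx s l := fun g hg =>
  h.smul_line hne hp hq (by rwa [h1 g hg]) (by rwa [h2 g hg])

theorem fx_point {p : P} {l m : L} (hne : l ≠ m) (hl : p ∈ l) (hm : p ∈ m) (h1 : Fx s l)
    (h2 : Fx s m) : Fx s p := fun g hg =>
  h.smul_point hne hl hm (by rwa [h1 g hg]) (by rwa [h2 g hg])

theorem fx_tg {X : P} (hX : X ∈ O) (h1 : Fx s X) : Fx s (tg L O X) := fun g hg => by
  rw [h.smul_tg g hX, h1 g hg]

theorem smul_eq_of_tg {g : G} {X : P} (hX : X ∈ O) (h1 : g • tg L O X = tg L O X) : g • X = X :=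
  h.eq_of_mem_tg hX (h.inv g X hX) (h1 ▸ h.smul_mem g (h.mem_tg hX))

theorem smul_or {g : G} {X Y : P} {l : L} (hX : X ∈ O) (hY : Y ∈ O) (hne : X ≠ Y) (h1 : X ∈ l)
    (h2 : Y ∈ l) (hl : g • l = l) : g • X = X ∨ g • X = Y :=
  h.eq_of_three hX hY (h.inv g X hX) h1 h2 (hl ▸ h.smul_mem g h1) hne

theorem fx_other {X Y : P} {l : L} (hX : X ∈ O) (hY : Y ∈ O) (h1 : X ∈ l) (h2 : Y ∈ l)
    (hl : Fx s l) (hf : Fx s X) : Fx s Y := fun g hg => by
  by_cases hne : Y = X
  · rw [hne, hf g hg]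
  · rcases h.smul_or hY hX hne h2 h1 (hl g hg) with e | e
    · exact e
    · exact absurd (MulAction.injective g (e.trans (hf g hg).symm)) hne

end Ov

end H52.Oval
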