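import Mathlib
import Cfsg.Agent.Lib.Oval.Geo

/-!
Counting fixed points and lines of sets of collineations preserving an oval.
-/

set_option autoImplicit false
set_option linter.unusedSectionVars false

noncomputable section

namespace H52.Oval

open Configuration Finset
open scoped Classical

variable {P L : Type*} [Membership P L] [Fintype P] [Fintype L] [ProjectivePlane P L]
variable {G : Type*} [Group G] [MulAction G P] [MulAction G L] {O : Finset P}

variable (P) in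
/-- Number of fixed points on a line. -/
def nP (s : Set G) (l : L) : ℕ := #{p : P | p ∈ l ∧ Fx s p}

variable (L) in
/-- Number of fixed lines through a point. -/
def nL (s : Set G) (p : P) : ℕ := #{l : L | p ∈ l ∧ Fx s l}

/-- Number of fixed points on the oval. -/
def fo (O : Finset P) (s : Set G) : ℕ := #{X ∈ O | Fx s X}

variable (L) in
/-- Number of fixed lines. -/
def el (s : Set G) : ℕ := #{l : L | Fx s l}

theorem nP_empty (l : L) : nP P (∅ : Set G) l = ProjectivePlane.order P L + 1 := by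
  rw [← card_pts l, nP]
  congr 1
  ext p
  simp [fx_empty]

theorem nP_le (s : Set G) (l : L) : nP P s l ≤ ProjectivePlane.order P L + 1 := by
  rw [← card_pts l, nP]
  exact card_le_card fun p hp => by simp only [mem_filter] at hp ⊢; tauto

theorem nL_le (s : Set G) (p : P) : nL L s p ≤ ProjectivePlane.order P L + 1 := by
  rw [← card_lns L p, nL]
  exact card_le_card fun p hp => by simp only [mem_filter] at hp ⊢; tauto

namespace Ov

variable (h : Ov L G O)
include h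

variable {s : Set G}

theorem fo_empty : fo O (∅ : Set G) = ProjectivePlane.order P L + 1 := by
  rw [← h.card, fo, filter_true_of_mem fun _ _ => fx_empty _]

theorem nL_eq_nP {p : P} {l : L} (hp : Fx s p) (hl : Fx s l) (hn : p ∉ l) : nL L s p = nP P s l := by
  symm
  refine card_bij (fun q _ => jn L p q) (fun q hq => ?_) (fun q hq r hr e => ?_) fun m hm => ?_
  · simp only [mem_filter, mem_univ, true_and] at hq ⊢
    exact ⟨jn_l _ _, h.fx_line (fun e : p = q => hn (e ▸ hq.1)) (jn_l _ _) (jn_r _ _) hp hq.2⟩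
  · simp only [mem_filter, mem_univ, true_and] at hq hr
    exact point_eq (fun e' : l = jn L p q => hn (e' ▸ jn_l p q)) hq.1 hr.1 (jn_r _ _) (e ▸ jn_r p r)
  · simp only [mem_filter, mem_univ, true_and] at hm ⊢
    have hne : l ≠ m := fun e => hn (e ▸ hm.1)
    exact ⟨mt P l m, ⟨mt_l _ _, h.fx_point hne (mt_l _ _) (mt_r _ _) hl hm.2⟩,
      line_eq (fun e : p = mt P l m => hn (e ▸ mt_l l m)) (jn_l _ _) (jn_r _ _) hm.1 (mt_r _ _)⟩

theorem nL_oval {X : P} (hX : X ∈ O) (hf : Fx s X) : nL L s X = fo O s := by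
  symm
  refine card_bij (fun Y _ => if Y = X then tg L O X else jn L X Y) (fun Y hY => ?_)
    (fun Y hY Z hZ e => ?_) fun m hm => ?_
  · simp only [mem_filter, mem_univ, true_and] at hY ⊢
    split_ifs with e
    · exact ⟨h.mem_tg hX, h.fx_tg hX hf⟩
    · exact ⟨jn_l _ _, h.fx_line (Ne.symm e) (jn_l _ _) (jn_r _ _) hf hY.2⟩
  · simp only [mem_filter] at hY hZ
    split_ifs at e with e1 e2 e2
    · rw [e1, e2]
    · exact absurd (h.eq_of_mem_tg hX hZ.1 (e ▸ jn_r X Z)) e2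
    · exact absurd (h.eq_of_mem_tg hX hY.1 (e ▸ jn_r X Y)) e1
    · exact ((h.eq_of_three hX hY.1 hZ.1 (jn_l X Y) (jn_r X Y) (e ▸ jn_r X Z)
        (Ne.symm e1)).resolve_left e2).symm
  · simp only [mem_filter, mem_univ, true_and] at hm ⊢
    rcases h.tg_or hX hm.1 with e | ⟨Y, hY, hne, hYm⟩
    · exact ⟨X, ⟨hX, hf⟩, by rw [if_pos rfl, e]⟩
    · exact ⟨Y, ⟨hY, h.fx_other hX hY hm.1 hYm hm.2 hf⟩, by
        rw [if_neg hne]
        exact line_eq hne.symm (jn_l _ _) (jn_r _ _) hm.1 hYm⟩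

theorem nP_of_three (h3 : 3 ≤ fo O s) {l : L} (hl : Fx s l) : nP P s l = fo O s := by
  obtain ⟨X, hX, hXl⟩ : ∃ X ∈ ({X ∈ O | Fx s X} : Finset P), X ∉ l := by
    by_contra hc
    push Not at hc
    have := card_le_card (s := {X ∈ O | Fx s X}) (t := {X ∈ O | X ∈ l}) fun X hX =>
      mem_filter.2 ⟨(mem_filter.1 hX).1, hc X hX⟩
    have h2 := h.card_inter l
    unfold fo at h3
    omega
  rw [mem_filter] at hX
  rw [← h.nL_eq_nP hX.2 hl hXl, h.nL_oval hX.1 hX.2]

theorem nL_of_three (h3 : 3 ≤ fo O s) {p : P} (hp : Fx s p) : nL L s p = fo O s := by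
  obtain ⟨a, ha, b, hb, c, hc, h1, h2, h4⟩ := two_lt_card.1 h3
  simp only [mem_filter] at ha hb hc
  obtain ⟨X, hX, hf, hn⟩ : ∃ X ∈ O, Fx s X ∧ p ∉ tg L O X := by
    by_contra hcon
    push Not at hcon
    rcases h.tg_three ha.1 hb.1 hc.1 (hcon a ha.1 ha.2) (hcon b hb.1 hb.2) (hcon c hc.1 hc.2) h1
      with e | e
    · exact h2 e.symm
    · exact h4 e.symm
  rw [h.nL_eq_nP hp (h.fx_tg hX hf) hn, h.nP_of_three h3 (h.fx_tg hX hf)]

theorem el_eq_sum {l : L} (hl : Fx s l) :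
    el L s = 1 + ∑ Z ∈ ({p : P | p ∈ l ∧ Fx s p} : Finset P), (nL L s Z - 1) := by
  have h1 := card_eq_sum_card_fiberwise (f := fun m => mt P l m)
    (s := ({m : L | Fx s m} : Finset L).erase l) (t := {p : P | p ∈ l ∧ Fx s p}) fun m hm => by
      simp only [coe_erase, coe_filter, mem_univ, true_and, Set.mem_sdiff, Set.mem_ofPred_eq,
        Set.mem_singleton_iff] at hm ⊢
      exact ⟨mt_l _ _, h.fx_point (Ne.symm hm.2) (mt_l _ _) (mt_r _ _) hl hm.1⟩
  have h2 := card_erase_add_one (s := ({m : L | Fx s m} : Finset L)) (a := l) (by simpa using hl)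
  rw [el, ← h2, h1, add_comm]
  congr 1
  refine sum_congr rfl fun Z hZ => ?_
  simp only [mem_filter, mem_univ, true_and] at hZ
  rw [nL, ← card_erase_of_mem (a := l) (by simpa using ⟨hZ.1, hl⟩)]
  congr 1
  ext m
  simp only [mem_filter, mem_erase, mem_univ, true_and]
  exact ⟨fun ⟨⟨h1, h2⟩, h3⟩ => ⟨h1, h3 ▸ mt_r _ _, h2⟩, fun ⟨h1, h2, h3⟩ =>
    ⟨⟨h1, h3⟩, point_eq (Ne.symm h1) (mt_l _ _) hZ.1 (mt_r _ _) h2⟩⟩

theorem el_of_const {l : L} (hl : Fx s l) {c : ℕ} (hc : ∀ Z : P, Z ∈ l → Fx s Z → nL L s Z = c) :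
    el L s = 1 + nP P s l * (c - 1) := by
  rw [h.el_eq_sum hl, sum_congr rfl (g := fun _ => c - 1) fun Z hZ => by
    simp only [mem_filter, mem_univ, true_and] at hZ
    rw [hc Z hZ.1 hZ.2], sum_const, smul_eq_mul, nP]

theorem el_of_three (h3 : 3 ≤ fo O s) : el L s = 1 + fo O s * (fo O s - 1) := by
  obtain ⟨X, hX⟩ := card_pos.1 (show 0 < fo O s by omega)
  rw [mem_filter] at hX
  rw [h.el_of_const (h.fx_tg hX.1 hX.2) fun Z _ hZ => h.nL_of_three h3 hZ,
    h.nP_of_three h3 (h.fx_tg hX.1 hX.2)]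

theorem double_count : ∑ X ∈ O, nL L s X + fo O s ≤ 2 * el L s := by
  have h1 : ∑ X ∈ O, nL L s X = ∑ l ∈ ({l : L | Fx s l} : Finset L), #{X ∈ O | X ∈ l} := by
    refine Eq.trans (sum_congr rfl fun X _ => ?_)
      (sum_card_bipartiteAbove_eq_sum_card_bipartiteBelow (s := O)
        (t := ({l : L | Fx s l} : Finset L)) (fun X l => X ∈ l))
    rw [nL, bipartiteAbove]
    congr 1
    ext l
    simp [and_comm]
  have h2 : fo O s = #{l ∈ ({l : L | Fx s l} : Finset L) | ∃ X ∈ O, l = tg L O X} := by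
    refine card_bij (fun X _ => tg L O X) (fun X hX => ?_) (fun X hX Y hY e => ?_) fun m hm => ?_
    · simp only [mem_filter, mem_univ, true_and] at hX ⊢
      exact ⟨h.fx_tg hX.1 hX.2, X, hX.1, rfl⟩
    · simp only [mem_filter] at hX hY
      by_contra hne
      exact h.tg_ne hX.1 hY.1 hne e
    · simp only [mem_filter, mem_univ, true_and] at hm ⊢
      obtain ⟨hm, X, hX, rfl⟩ := hm
      exact ⟨X, ⟨hX, fun g hg => h.smul_eq_of_tg hX (hm g hg)⟩, rfl⟩
  rw [h1, h2, card_filter, ← sum_add_distrib, el, mul_comm, ← smul_eq_mul, ← sum_const]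
  refine sum_le_sum fun l _ => ?_
  split_ifs with e
  · obtain ⟨X, hX, rfl⟩ := e
    have : #{Y ∈ O | Y ∈ tg L O X} ≤ 1 := card_le_one.2 fun a ha b hb => by
      rw [mem_filter] at ha hb
      rw [h.eq_of_mem_tg hX ha.1 ha.2, h.eq_of_mem_tg hX hb.1 hb.2]
    omega
  · simpa using h.card_inter l

end Ov

/-- `t` acts on the points fixed by `s` with trivial square. -/
structure Ext (P : Type*) {G : Type*} [Group G] [MulAction G P] (s : Set G) (t : G) : Prop where
  mem : ∀ p : P, Fx s p → Fx s (t • p)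
  sq : ∀ p : P, Fx s p → t • t • p = p

theorem ext_empty {t : G} (ht : t * t = 1) : Ext P ∅ t :=
  ⟨fun _ _ => fx_empty _, fun p _ => by rw [smul_smul, ht, one_smul]⟩

namespace Ov

variable (h : Ov L G O)
include h

variable {s : Set G} {t : G}

theorem fx_jn (e : Ext P s t) {p : P} (hp : Fx s p) (hne : t • p ≠ p) {l : L} (h1 : p ∈ l)
    (h2 : t • p ∈ l) : Fx (insert t s) l :=
  fx_insert.2 ⟨h.smul_line hne.symm h1 h2 h2 (by rwa [e.sq p hp]),
    h.fx_line hne.symm h1 h2 hp (e.mem p hp)⟩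

theorem fx_pole (e : Ext P s t) {X : P} (hX : X ∈ O) (hf : Fx s X) (hne : t • X ≠ X) {Y : P}
    (h1 : Y ∈ tg L O X) (h2 : Y ∈ tg L O (t • X)) : Fx (insert t s) Y :=
  have hX' := h.inv t X hX
  fx_insert.2 ⟨h.smul_point (h.tg_ne hX hX' hne.symm) h1 h2 (by rwa [h.smul_tg t hX])
    (by rwa [h.smul_tg t hX', e.sq X hf]),
    h.fx_point (h.tg_ne hX hX' hne.symm) h1 h2 (h.fx_tg hX hf) (h.fx_tg hX' (e.mem X hf))⟩

theorem pole_notMem {X X' Y : P} (hX : X ∈ O) (hX' : X' ∈ O) (hne : X' ≠ X) (h1 : Y ∈ tg L O X)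
    (h2 : Y ∈ tg L O X') {l : L} (h3 : X ∈ l) (h4 : X' ∈ l) : Y ∉ l := fun hY => by
  by_cases e : Y = X
  · exact hne (h.eq_of_mem_tg hX' hX (e ▸ h2)).symm
  · exact hne (h.eq_of_mem_tg hX hX' (line_eq e hY h3 h1 (h.mem_tg hX) ▸ h4))

/-- The number of lines fixed by `s` and `t`. -/
theorem el_ext (e : Ext P s t) {X : P} (hX : X ∈ O) (hf : Fx s X) (hne : t • X ≠ X) {g : L}
    (h1 : X ∈ g) (h2 : t • X ∈ g) :
    el L (insert t s) + 1 = nP P s (tg L O X) + nP P (insert t s) g := by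
  have hX' := h.inv t X hX
  set Y := mt P (tg L O X) (tg L O (t • X)) with hY
  have hYf : Fx (insert t s) Y := h.fx_pole e hX hf hne (mt_l _ _) (mt_r _ _)
  rw [← h.nL_eq_nP hYf (h.fx_jn e hf hne h1 h2)
    (h.pole_notMem hX hX' hne (mt_l _ _) (mt_r _ _) h1 h2)]
  have hnt : ∀ m : L, Fx (insert t s) m → tg L O X ≠ m := fun m hm e' =>
    hne (h.smul_eq_of_tg hX (e' ▸ (fx_insert.1 hm).1))
  have h3 := card_eq_sum_card_fiberwise (f := fun m => mt P (tg L O X) m)
    (s := ({m : L | Fx (insert t s) m} : Finset L)) (t := {p : P | p ∈ tg L O X ∧ Fx s p})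
    fun m hm => by
      simp only [coe_filter, mem_univ, true_and, Set.mem_ofPred_eq] at hm ⊢
      exact ⟨mt_l _ _, h.fx_point (hnt m hm) (mt_l _ _) (mt_r _ _) (h.fx_tg hX hf)
        (fx_insert.1 hm).2⟩
  have h4 : ∀ Z : P, Z ∈ tg L O X → #{m ∈ ({m : L | Fx (insert t s) m} : Finset L) |
      mt P (tg L O X) m = Z} = nL L (insert t s) Z := fun Z hZ => by
    rw [nL]
    congr 1
    ext m
    simp only [mem_filter, mem_univ, true_and]
    exact ⟨fun ⟨h1, h2⟩ => ⟨h2 ▸ mt_r _ _, h1⟩, fun ⟨h1, h2⟩ =>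
      ⟨h2, point_eq (hnt m h2) (mt_l _ _) hZ (mt_r _ _) h1⟩⟩
  have hYm : Y ∈ ({p : P | p ∈ tg L O X ∧ Fx s p} : Finset P) := by
    simpa using ⟨mt_l _ _, (fx_insert.1 hYf).2⟩
  rw [el, h3, ← add_sum_erase _ _ hYm, h4 Y (mt_l _ _), sum_congr rfl (g := fun _ => 1) fun Z hZ => ?_,
    sum_const, smul_eq_mul, mul_one, nP, ← card_erase_add_one hYm]
  · omega
  simp only [mem_erase, mem_filter, mem_univ, true_and] at hZ
  have hZt : t • Z ≠ Z := fun e' => hZ.1 (point_eq (h.tg_ne hX hX' hne.symm) hZ.2.1 (mt_l _ _)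
    (by rw [← h.smul_tg t hX, ← e']; exact h.smul_mem t hZ.2.1) (mt_r _ _))
  rw [h4 Z hZ.2.1, nL, card_eq_one]
  refine ⟨jn L Z (t • Z), ?_⟩
  ext m
  simp only [mem_filter, mem_univ, true_and, mem_singleton]
  refine ⟨fun ⟨h5, h6⟩ => line_eq hZt.symm h5 ?_ (jn_l _ _) (jn_r _ _), fun e' => ?_⟩
  · rw [← (fx_insert.1 h6).1]
    exact h.smul_mem t h5
  · subst e'
    exact ⟨jn_l _ _, h.fx_jn e hZ.2.2 hZt (jn_l _ _) (jn_r _ _)⟩

end Ov

end H52.Oval
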