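import Mathlib
import Cfsg.Agent.Lib.Oval.Cnt

/-!
Four-groups of collineations preserving an oval.
-/

set_option autoImplicit false
set_option linter.unusedSectionVars false

noncomputable section

namespace H52.Oval

open Configuration Finset
open scoped Classical

variable {P L : Type*} [Membership P L] [Fintype P] [Fintype L] [ProjectivePlane P L]
variable {G : Type*} [Group G] [MulAction G P] [MulAction G L] {O : Finset P}

theorem el_congr {s s' : Set G} (h : ∀ l : L, Fx s l ↔ Fx s' l) : el L s = el L s' := by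
  unfold el
  congr 1
  exact filter_congr fun l _ => h l

theorem nP_congr {s s' : Set G} (h : ∀ p : P, Fx s p ↔ Fx s' p) (l : L) : nP P s l = nP P s' l := by
  unfold nP
  congr 1
  exact filter_congr fun p _ => and_congr_right fun _ => h p

theorem fo_mono {s s' : Set G} (h : ∀ p : P, Fx s' p → Fx s p) : fo O s' ≤ fo O s :=
  card_le_card fun p hp => by
    rw [mem_filter] at hp ⊢
    exact ⟨hp.1, h p hp.2⟩

theorem fx_of_fo_le {s s' : Set G} (h : ∀ p : P, Fx s' p → Fx s p) (hle : fo O s ≤ fo O s') {X : P}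
    (hX : X ∈ O) (hf : Fx s X) : Fx s' X := by
  have := eq_of_subset_of_card_le (s := {X ∈ O | Fx s' X}) (t := {X ∈ O | Fx s X}) (fun p hp => by
    rw [mem_filter] at hp ⊢
    exact ⟨hp.1, h p hp.2⟩) hle
  exact (mem_filter.1 (this ▸ mem_filter.2 ⟨hX, hf⟩ : X ∈ ({X ∈ O | Fx s' X} : Finset P))).2

theorem exists_of_fo_lt {s s' : Set G} (hlt : fo O s' < fo O s) : ∃ X ∈ O, Fx s X ∧ ¬ Fx s' X := by
  by_contra hc
  push Not at hc
  exact absurd (card_le_card fun p hp => by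
    rw [mem_filter] at hp ⊢
    exact ⟨hp.1, hc p hp.1 hp.2⟩) (not_le.2 hlt)

theorem fx_mul {α : Type*} [MulAction G α] {s : Set G} {x y : G} {p : α} :
    Fx (insert x (insert (x * y) s)) p ↔ Fx (insert y (insert x s)) p := by
  simp only [fx_insert, mul_smul]
  refine ⟨fun ⟨h1, h2, h3⟩ => ⟨MulAction.injective x (h2.trans h1.symm), h1, h3⟩,
    fun ⟨h1, h2, h3⟩ => ⟨h2, by rw [h1, h2], h3⟩⟩

theorem fx_comm {α : Type*} [MulAction G α] {s : Set G} {x y : G} {p : α} :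
    Fx (insert x (insert y s)) p ↔ Fx (insert y (insert x s)) p := by
  rw [Set.insert_comm]

namespace Ov

variable (h : Ov L G O)
include h

variable {s : Set G} {t : G}

theorem fo_ext (e : Ext P s t) (h3 : 3 ≤ fo O (insert t s)) {X : P} (hX : X ∈ O) (hf : Fx s X)
    (hne : t • X ≠ X) : fo O s + 2 * fo O (insert t s) = fo O (insert t s) ^ 2 + 2 := by
  have h1 := h.el_ext e hX hf hne (jn_l X (t • X)) (jn_r X (t • X))
  have h4 : 3 ≤ fo O s := h3.trans (fo_mono fun p hp => (fx_insert.1 hp).2)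
  rw [h.nP_of_three h4 (h.fx_tg hX hf), h.nP_of_three h3 (h.fx_jn e hf hne (jn_l _ _) (jn_r _ _)),
    h.el_of_three h3] at h1
  obtain ⟨k, hk⟩ := Nat.exists_eq_add_of_le' (show 1 ≤ fo O (insert t s) by omega)
  rw [hk, Nat.add_sub_cancel] at h1
  rw [hk]
  nlinarith

theorem fx_line_of_fo_le {s' : Set G} (hP : ∀ p : P, Fx s' p → Fx s p)
    (hL : ∀ l : L, Fx s' l → Fx s l) (h3 : 3 ≤ fo O s) (hle : fo O s ≤ fo O s') {l : L}
    (hl : Fx s l) : Fx s' l := by
  have h1 : fo O s' = fo O s := le_antisymm (fo_mono hP) hle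
  have := eq_of_subset_of_card_le (s := {l : L | Fx s' l}) (t := {l : L | Fx s l}) (fun p hp => by
    simp only [mem_filter, mem_univ, true_and] at hp ⊢
    exact hL p hp) (by
      change el L s ≤ el L s'
      rw [h.el_of_three h3, h.el_of_three (h3.trans hle), h1])
  have h2 : l ∈ ({l : L | Fx s l} : Finset L) := by simpa using hl
  rw [← this] at h2
  simpa using h2

theorem eq_one [FaithfulSMul G P] {g : G} (hg : ∀ X ∈ O, g • X = X) : g = 1 := by
  have h3 := h.three_le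
  have hl : ∀ l : L, g • l = l := fun l => fx_single.1 <|
    h.fx_line_of_fo_le (s := ∅) (fun _ _ => fx_empty _) (fun _ _ => fx_empty _)
      (by rw [h.fo_empty]; omega) (by
        rw [h.fo_empty, fo, filter_true_of_mem fun X hX => fx_single.2 (hg X hX), h.card])
      (fx_empty _)
  refine eq_of_smul_eq_smul (α := P) fun p => ?_
  obtain ⟨l, hl1, m, hm, hne⟩ := one_lt_card.1 (show 1 < #{l : L | p ∈ l} by rw [card_lns]; omega)
  simp only [mem_filter, mem_univ, true_and] at hl1 hm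
  rw [one_smul, h.smul_point hne hl1 hm (by rwa [hl]) (by rwa [hl])]

theorem sum_le_two_mul (A : Finset L) : ∑ X ∈ O, #{l ∈ A | X ∈ l} ≤ 2 * #A := by
  refine (sum_card_bipartiteAbove_eq_sum_card_bipartiteBelow (s := O) (t := A)
    (fun X l => X ∈ l)).trans_le ?_
  rw [mul_comm, ← smul_eq_mul, ← sum_const]
  exact sum_le_sum fun l _ => h.card_inter l

theorem typed (e : Ext P s t) {s' : Set G} (hP : ∀ p : P, Fx (insert t s) p ↔ Fx s' p)
    (hL : ∀ l : L, Fx (insert t s) l ↔ Fx s' l) (h3 : 3 ≤ fo O s) {X : P} (hX : X ∈ O)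
    (hf : Fx s X) (hn : ¬ Fx s' X) : ∃ g : L, X ∈ g ∧ Fx s' g ∧ (∀ Z ∈ O, Z ∈ g → ¬ Fx s' Z) ∧
      el L s' + 1 = fo O s + nP P s' g := by
  have hne : t • X ≠ X := fun e' => hn ((hP X).1 (fx_insert.2 ⟨e', hf⟩))
  have hg := (hL _).1 (h.fx_jn e hf hne (jn_l X (t • X)) (jn_r X (t • X)))
  refine ⟨_, jn_l X (t • X), hg, fun Z hZ hZg hZf => hn (h.fx_other hZ hX hZg (jn_l _ _) hg hZf), ?_⟩
  rw [← el_congr hL, ← nP_congr hP, h.el_ext e hX hf hne (jn_l _ _) (jn_r _ _),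
    h.nP_of_three h3 (h.fx_tg hX hf)]

theorem four_core {s1 s2 s3 s' : Set G} {f : ℕ} (h3 : 3 ≤ f) (f1 : fo O s1 = f) (f2 : fo O s2 = f)
    (f3 : fo O s3 = f) (hlt : fo O s' < f) (hL : ∀ l : L, Fx s' l → Fx s1 l)
    (hP : ∀ p : P, Fx s' p → Fx s1 p ∧ Fx s2 p ∧ Fx s3 p)
    (h12 : ∀ p : P, Fx s1 p → Fx s2 p → Fx s' p) (h13 : ∀ p : P, Fx s1 p → Fx s3 p → Fx s' p)
    (h23 : ∀ p : P, Fx s2 p → Fx s3 p → Fx s' p)
    (hT : ∀ X ∈ O, Fx s1 X ∨ Fx s2 X ∨ Fx s3 X → ¬ Fx s' X → ∃ g : L, X ∈ g ∧ Fx s' g ∧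
      (∀ Z ∈ O, Z ∈ g → ¬ Fx s' Z) ∧ el L s' + 1 = f + nP P s' g) : False := by
  have key : ∀ (c : P → ℕ) (k : ℕ), (∀ X ∈ O, Fx s' X → k ≤ c X) →
      (∀ X ∈ O, Fx s1 X ∨ Fx s2 X ∨ Fx s3 X → ¬ Fx s' X → 1 ≤ c X) →
      3 * f + k * fo O s' ≤ ∑ X ∈ O, c X + 3 * fo O s' := fun c k hc1 hc2 => by
    have e : 3 * f = fo O s1 + fo O s2 + fo O s3 := by omega
    simp only [e, fo, card_filter, mul_sum, ← sum_add_distrib]
    refine sum_le_sum fun X hX => ?_
    by_cases a : Fx s' X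
    · have := hc1 X hX a
      simp only [a, (hP X a).1, (hP X a).2.1, (hP X a).2.2, if_true]
      omega
    · have := hc2 X hX
      have := h12 X
      have := h13 X
      have := h23 X
      by_cases b1 : Fx s1 X <;> by_cases b2 : Fx s2 X <;> by_cases b3 : Fx s3 X <;> simp_all
  have k1 := key (nL L s') (fo O s') (fun X hX a => (h.nL_oval hX a).ge) fun X hX a b => by
    obtain ⟨g, g1, g2, -⟩ := hT X hX a b
    exact card_pos.2 ⟨g, by simpa using ⟨g1, g2⟩⟩
  have k2 := h.double_count (s := s')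
  obtain ⟨X, hX, hX1, hXn⟩ := exists_of_fo_lt (O := O) (s := s1) (s' := s') (by omega)
  obtain ⟨g, -, g2, g3, g4⟩ := hT X hX (Or.inl hX1) hXn
  rcases Nat.eq_zero_or_pos (fo O s') with h0 | h0
  · have k3 : ∀ Z : P, Z ∈ g → Fx s' Z → nL L s' Z = nP P s' g := fun Z _ hZ => by
      by_contra hne
      have k4 := key (fun X => #{l ∈ ({l : L | Z ∈ l ∧ Fx s1 l} : Finset L) | X ∈ l}) 0
        (fun _ _ _ => Nat.zero_le _) fun Y hY a b => by
          obtain ⟨g', a1, a2, -, a4⟩ := hT Y hY a b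
          refine card_pos.2 ⟨g', ?_⟩
          simp only [mem_filter, mem_univ, true_and]
          refine ⟨⟨by_contra fun hn => hne ?_, hL _ a2⟩, a1⟩
          rw [h.nL_eq_nP hZ a2 hn]
          omega
      have k5 := h.sum_le_two_mul ({l : L | Z ∈ l ∧ Fx s1 l} : Finset L)
      have k6 := h.nL_of_three (s := s1) (by omega) (hP Z hZ).1
      unfold nL at k6
      omega
    have k7 := h.el_of_const g2 k3
    generalize nP P s' g = σ at *
    rcases σ with _ | σ
    · omega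
    · rw [Nat.add_sub_cancel] at k7
      nlinarith [sq_nonneg ((σ : ℤ) - 1)]
  · obtain ⟨P0, hP0⟩ := card_pos.1 h0
    rw [mem_filter] at hP0
    rw [← h.nL_eq_nP hP0.2 g2 fun hm => g3 P0 hP0.1 hm hP0.2, h.nL_oval hP0.1 hP0.2] at g4
    nlinarith [sq_nonneg ((fo O s' : ℤ) - 2)]

/-- No four-group of Baer involutions acts on the fixed structure of `s`. -/
theorem four {x y : G} (ex : Ext P s x) (ey : Ext P s y)
    (hc : ∀ p : P, Fx s p → x • y • p = y • x • p) (f1 : 3 ≤ fo O (insert x s))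
    (f2 : 3 ≤ fo O (insert y s)) (f3 : 3 ≤ fo O (insert (x * y) s))
    (m1 : ∃ X ∈ O, Fx s X ∧ x • X ≠ X) (m2 : ∃ X ∈ O, Fx s X ∧ y • X ≠ X)
    (m3 : ∃ X ∈ O, Fx s X ∧ (x * y) • X ≠ X) : False := by
  have exy : Ext P s (x * y) := ⟨fun p hp => by rw [mul_smul]; exact ex.mem _ (ey.mem _ hp),
    fun p hp => by rw [mul_smul, mul_smul, ← hc _ (ey.mem _ hp), ey.sq _ hp, ex.sq _ hp]⟩
  obtain ⟨X1, a1, b1, c1⟩ := m1
  obtain ⟨X2, a2, b2, c2⟩ := m2
  obtain ⟨X3, a3, b3, c3⟩ := m3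
  have k1 := h.fo_ext ex f1 a1 b1 c1
  have k2 := h.fo_ext ey f2 a2 b2 c2
  have k3 := h.fo_ext exy f3 a3 b3 c3
  have inj : ∀ a b : ℕ, 3 ≤ a → 3 ≤ b → a ^ 2 + 2 * b = b ^ 2 + 2 * a → a = b := fun a b ha hb e => by
    rcases lt_trichotomy a b with l | l | l
    · nlinarith
    · exact l
    · nlinarith
  have e2 : fo O (insert y s) = fo O (insert x s) := inj _ _ f2 f1 (by omega)
  have e3 : fo O (insert (x * y) s) = fo O (insert x s) := inj _ _ f3 f1 (by omega)
  have p1 : ∀ p : P, Fx (insert y (insert x s)) p → Fx (insert x s) p := fun p hp =>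
    (fx_insert.1 hp).2
  have p2 : ∀ p : P, Fx (insert y (insert x s)) p → Fx (insert y s) p := fun p hp =>
    (fx_insert.1 (fx_comm.1 hp)).2
  have p3 : ∀ p : P, Fx (insert y (insert x s)) p → Fx (insert (x * y) s) p := fun p hp =>
    (fx_insert.1 (fx_mul.2 hp)).2
  rcases lt_or_ge (fo O (insert y (insert x s))) (fo O (insert x s)) with l | l
  · refine h.four_core f1 rfl e2 e3 l (fun l hl => (fx_insert.1 hl).2)
      (fun p hp => ⟨p1 p hp, p2 p hp, p3 p hp⟩)
      (fun p a b => fx_insert.2 ⟨(fx_insert.1 b).1, a⟩)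
      (fun p a b => fx_mul.1 (fx_insert.2 ⟨(fx_insert.1 a).1, b⟩)) (fun p a b => ?_)
      fun X hX a b => ?_
    · rw [fx_insert] at a b
      rw [mul_smul, a.1] at b
      exact fx_insert.2 ⟨a.1, fx_insert.2 b⟩
    · have ext : ∀ {u v : G}, Ext P s v → (∀ p : P, Fx s p → u • v • p = v • u • p) →
          Ext P (insert u s) v := fun ev huv => ⟨fun p hp => by
            rw [fx_insert] at hp ⊢
            exact ⟨by rw [huv p hp.2, hp.1], ev.mem p hp.2⟩,
          fun p hp => ev.sq p (fx_insert.1 hp).2⟩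
      rcases a with a | a | a
      · exact h.typed (ext ey hc) (fun _ => Iff.rfl) (fun _ => Iff.rfl) f1 hX a b
      · rw [← e2]
        exact h.typed (ext ex fun p hp => (hc p hp).symm) (fun _ => fx_comm) (fun _ => fx_comm)
          f2 hX a b
      · rw [← e3]
        exact h.typed (ext ex fun p hp => by rw [mul_smul, mul_smul, hc p hp])
          (fun _ => fx_mul) (fun _ => fx_mul) f3 hX a b
  · have hg := h.fx_line_of_fo_le p1 (fun l hl => (fx_insert.1 hl).2) f1 l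
      (h.fx_jn ex b1 c1 (jn_l _ _) (jn_r _ _))
    refine c1 (fx_insert.1 (p1 X1 ?_)).1
    rcases h.smul_or a1 (h.inv x _ a1) c1.symm (jn_l _ _) (jn_r _ _) (fx_insert.1 hg).1 with e | e
    · exact fx_of_fo_le p2 (by omega) a1 (fx_insert.2 ⟨e, b1⟩)
    · exact fx_of_fo_le p3 (by omega) a1 (fx_insert.2 ⟨by rw [mul_smul, e, ex.sq _ b1], b1⟩)

end Ov

end H52.Oval
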