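import Mathlib

/-!
Signs and fixed point congruences for elements acting on an invariant finite set.
-/

set_option autoImplicit false
set_option linter.unusedSectionVars false

noncomputable section

namespace H52.Oval

open Finset Equiv
open scoped Classical

variable {G P : Type*} [Group G] [MulAction G P]

variable (G) in
/-- The stabiliser of a finite set. -/
def St (T : Finset P) : Subgroup G where
  carrier := {g | ∀ p, g • p ∈ T ↔ p ∈ T}
  one_mem' p := by rw [one_smul]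
  mul_mem' {a b} ha hb p := by rw [mul_smul, ha, hb]
  inv_mem' {a} ha p := by rw [← ha, smul_inv_smul]

theorem mem_St {T : Finset P} {g : G} (h : ∀ p ∈ T, g • p ∈ T) : g ∈ St G T := fun p => by
  refine ⟨fun hp => ?_, h p⟩
  have e : T.image (g • ·) = T := eq_of_subset_of_card_le (fun q hq => by
    obtain ⟨r, hr, rfl⟩ := mem_image.1 hq
    exact h r hr) (card_image_of_injective _ (MulAction.injective g)).ge
  rw [← e] at hp
  obtain ⟨r, hr, e'⟩ := mem_image.1 hp
  exact MulAction.injective g e' ▸ hr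

/-- The action on an invariant finite set. -/
def ph (T : Finset P) : St G T →* Perm {p // p ∈ T} :=
  MonoidHom.mk' (fun g => (MulAction.toPerm g.1).subtypePerm g.2) fun a b => by
    ext x
    exact mul_smul a.1 b.1 x.1

theorem ph_apply (T : Finset P) (g : St G T) (x : {p // p ∈ T}) : (ph T g x : P) = g.1 • x.1 := rfl

theorem card_fixed (T : Finset P) (g : St G T) :
    Fintype.card (Function.fixedPoints (ph T g)) = #{p ∈ T | g.1 • p = p} := by
  rw [← Fintype.card_coe]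
  exact Fintype.card_congr
    ⟨fun x => ⟨x.1.1, mem_filter.2 ⟨x.1.2, congrArg Subtype.val x.2⟩⟩,
      fun x => ⟨⟨x.1, (mem_filter.1 x.2).1⟩, Subtype.ext (mem_filter.1 x.2).2⟩,
      fun _ => rfl, fun _ => rfl⟩

theorem ph_pow_eq_one {T : Finset P} (g : St G T) {k : ℕ} (h : ∀ p ∈ T, g.1 ^ k • p = p) :
    ph T g ^ k = 1 := by
  ext x
  rw [← map_pow, ph_apply]
  exact h x x.2

theorem card_modEq {T : Finset P} {g : G} (hg : ∀ p ∈ T, g • p ∈ T) {r : ℕ} (hr : r.Prime)
    (h : ∀ p ∈ T, g ^ r • p = p) : #T ≡ #{p ∈ T | g • p = p} [MOD r] := by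
  have : Fact r.Prime := ⟨hr⟩
  have h1 := Perm.card_compl_support_modEq (σ := ph T ⟨g, mem_St hg⟩) (p := r) (n := 1)
    (by rw [pow_one]; exact ph_pow_eq_one ⟨g, mem_St hg⟩ h)
  rw [card_compl, ← Perm.sum_cycleType, ← Perm.card_fixedPoints, card_fixed, Fintype.card_coe] at h1
  exact h1.symm

theorem sign_two {T : Finset P} (g : St G T) (h : ∀ p ∈ T, g.1 ^ 2 • p = p) :
    Perm.sign (ph T g) = (-1) ^ ((#T - #{p ∈ T | g.1 • p = p}) / 2) := by
  rw [Perm.sign_of_pow_two_eq_one (ph_pow_eq_one g h), card_fixed, Fintype.card_coe]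

theorem semi {T : Finset P} (g : St G T) {i : ℕ} (h1 : ∀ p ∈ T, g.1 ^ 2 ^ (i + 1) • p = p)
    (h2 : ∀ p ∈ T, g.1 ^ 2 ^ i • p ≠ p) :
    ∃ c, #T = 2 ^ (i + 1) * c ∧ Perm.sign (ph T g) = (-1) ^ c := by
  set σ := ph T g
  have hσ : σ ^ 2 ^ (i + 1) = 1 := ph_pow_eq_one g h1
  have h3 : ∀ x, (σ ^ 2 ^ i) x ≠ x := fun x e => h2 x x.2 (by
    rw [← map_pow] at e
    exact congrArg Subtype.val e)
  have h4 : ∀ n ∈ σ.cycleType, n = 2 ^ (i + 1) := by
    intro n hn
    obtain ⟨j, hj, rfl⟩ := (Nat.dvd_prime_pow Nat.prime_two).1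
      ((Perm.dvd_of_mem_cycleType hn).trans (orderOf_dvd_of_pow_eq_one hσ))
    rcases hj.eq_or_lt with e | hj
    · rw [e]
    obtain ⟨c, τ, e, hd, hcyc, e'⟩ := Perm.mem_cycleType_iff.mp hn
    obtain ⟨x, hx, -⟩ := id hcyc
    refine absurd ?_ (h3 x)
    obtain ⟨k, hk⟩ := Nat.exists_eq_add_of_le (Nat.lt_succ_iff.1 hj)
    rw [e, hd.commute.mul_pow, hk, pow_add, pow_mul c, ← e', ← hcyc.orderOf, pow_orderOf_eq_one,
      one_pow, one_mul]
    exact Perm.pow_apply_eq_self_of_apply_eq_self ((hd x).resolve_left hx) _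
  have h5 : σ.support = univ := eq_univ_iff_forall.2 fun x => Perm.mem_support.2 fun hx =>
    h3 x (Perm.pow_apply_eq_self_of_apply_eq_self hx _)
  have h6 : σ.cycleType.sum = #T := by rw [Perm.sum_cycleType, h5, card_univ, Fintype.card_coe]
  have h7 : #T = 2 ^ (i + 1) * Multiset.card σ.cycleType := by
    rw [← h6, Multiset.eq_replicate_card.mpr h4, Multiset.sum_replicate, smul_eq_mul, mul_comm,
      Multiset.card_replicate]
  refine ⟨_, h7, ?_⟩
  rw [Perm.sign_of_cycleType, h6, h7, pow_add, pow_succ', mul_assoc, pow_mul]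
  simp

theorem pow_dvd_card {T : Finset P} {g : G} (hg : ∀ p ∈ T, g • p ∈ T) {i : ℕ}
    (h1 : ∀ p ∈ T, g ^ 2 ^ (i + 1) • p = p) (h2 : ∀ p ∈ T, g ^ 2 ^ i • p ≠ p) : 2 ^ (i + 1) ∣ #T := by
  obtain ⟨c, hc, -⟩ := semi ⟨g, mem_St hg⟩ h1 h2
  exact ⟨c, hc⟩

theorem hom_eq_one [IsSimpleGroup G] (hG : ¬ IsMulCommutative G) (φ : G →* ℤˣ) (g : G) :
    φ g = 1 := by
  rcases (inferInstance : φ.ker.Normal).eq_bot_or_eq_top with h | h
  · exact absurd ⟨⟨fun a b => (MonoidHom.ker_eq_bot_iff φ).1 h (by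
      rw [map_mul, map_mul, mul_comm])⟩⟩ hG
  · exact MonoidHom.mem_ker.1 (h ▸ Subgroup.mem_top g)

theorem fixed_modEq_four [IsSimpleGroup G] (hG : ¬ IsMulCommutative G) {T : Finset P}
    (hT : ∀ g : G, ∀ p ∈ T, g • p ∈ T) {t : G} (ht : t * t = 1) :
    #{p ∈ T | t • p = p} % 4 = #T % 4 := by
  have h0 : ∀ p ∈ T, t ^ 2 • p = p := fun p _ => by rw [pow_two, ht, one_smul]
  have h1 := hom_eq_one hG (Perm.sign.comp ((ph T).comp
    ((MonoidHom.id G).codRestrict (St G T) fun g => mem_St (hT g)))) t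
  have h2 := sign_two ⟨t, mem_St (hT t)⟩ h0
  have h3 := card_modEq (hT t) Nat.prime_two h0
  have h4 := card_filter_le T fun p => t • p = p
  have h5 : Even ((#T - #{p ∈ T | t • p = p}) / 2) := by
    by_contra hc
    rw [Odd.neg_one_pow (Nat.not_even_iff_odd.1 hc)] at h2
    exact absurd (h1.symm.trans h2) (by decide)
  obtain ⟨k, hk⟩ := h5
  unfold Nat.ModEq at h3
  omega

end H52.Oval
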