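import Mathlib
import Cfsg.Agent.Lib.Oval.Four
import Cfsg.Agent.Lib.Oval.Perm

/-!
Centres and axes of involutions preserving an oval.
-/

set_option autoImplicit false
set_option linter.unusedSectionVars false

noncomputable section

namespace H52.Oval

open Configuration Finset
open scoped Classical

variable {P L : Type*} [Membership P L] [Fintype P] [Fintype L] [ProjectivePlane P L]
variable {G : Type*} [Group G] [MulAction G P] [MulAction G L] {O : Finset P}

theorem fo_single (g : G) : fo O ({g} : Set G) = #{p ∈ O | g • p = p} := by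
  unfold fo
  congr 1
  exact filter_congr fun _ _ => fx_single

variable (L) in
/-- `A` is the centre of `t` with respect to the oval. -/
structure Cen (O : Finset P) (t : G) (A : P) : Prop where
  notMem : A ∉ O
  mv : ∀ X ∈ O, t • X ≠ X → ∀ l : L, X ∈ l → t • X ∈ l → A ∈ l
  fx : ∀ X ∈ O, t • X = X → A ∈ tg L O X

/-- `t` is a homology with centre `A` and axis `l`. -/
structure Hom (t : G) (A : P) (l : L) : Prop where
  notMem : A ∉ l
  pt : ∀ p : P, t • p = p ↔ p = A ∨ p ∈ l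
  ln : ∀ m : L, A ∈ m → t • m = m

namespace Ov

variable (h : Ov L G O)
include h

theorem exists_cen {t : G} (ht : t * t = 1) (h2 : fo O ({t} : Set G) = 2) : ∃ A, Cen L O t A := by
  obtain ⟨X, Y, hne, e⟩ := card_eq_two.1 h2
  have hX : X ∈ ({X ∈ O | Fx ({t} : Set G) X} : Finset P) := by simp [e]
  have hY : Y ∈ ({X ∈ O | Fx ({t} : Set G) X} : Finset P) := by simp [e]
  rw [mem_filter, fx_single] at hX hY
  have key : ∀ Z ∈ O, t • Z = Z → Z = X ∨ Z = Y := fun Z hZ a => by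
    have : Z ∈ ({X ∈ O | Fx ({t} : Set G) X} : Finset P) := mem_filter.2 ⟨hZ, fx_single.2 a⟩
    simpa [e] using this
  refine ⟨mt P (tg L O X) (tg L O Y), fun hA => hne ((h.eq_of_mem_tg hX.1 hA (mt_l _ _)).symm.trans
    (h.eq_of_mem_tg hY.1 hA (mt_r _ _))), fun Z hZ a l h1 h2 => ?_, fun Z hZ a => ?_⟩
  · have hl : t • l = l := (fx_insert.1 (h.fx_jn (ext_empty ht) (fx_empty _) a h1 h2)).1
    have hXl : X ∉ l := fun hm => by
      rcases h.eq_of_three hZ (h.inv t Z hZ) hX.1 h1 h2 hm a.symm with e' | e'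
      · exact a (e' ▸ hX.2)
      · exact a (by rw [← e', MulAction.injective t (hX.2.trans e')])
    have hlt : l ≠ tg L O X := fun e' => hXl (e' ▸ h.mem_tg hX.1)
    have hB : t • mt P l (tg L O X) = mt P l (tg L O X) :=
      h.smul_point hlt (mt_l _ _) (mt_r _ _) (by rw [hl]; exact mt_l _ _)
        (by rw [h.smul_tg t hX.1, hX.2]; exact mt_r _ _)
    obtain ⟨W, hW, hWX, hm⟩ := h.exists_tg_two hX.1 (mt_r l _) fun e' => hXl (e' ▸ mt_l l _)
    have hm' : mt P l (tg L O X) ∈ tg L O (t • W) := by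
      rw [← h.smul_tg t hW, ← hB]
      exact h.smul_mem t hm
    have hWt : t • W = W := (h.tg_three hX.1 hW (h.inv t W hW) (mt_r _ _) hm hm'
      hWX.symm).resolve_left fun e' => hWX (MulAction.injective t (e'.trans hX.2.symm))
    rw [(key W hW hWt).resolve_left hWX] at hm
    rw [point_eq (h.tg_ne hX.1 hY.1 hne) (mt_l _ _) (mt_r l _) (mt_r _ _) hm]
    exact mt_l _ _
  · rcases key Z hZ a with rfl | rfl
    · exact mt_l _ _
    · exact mt_r _ _

theorem cen_smul_eq {a b : G} {A : P} (ha : Cen L O a A) (hb : Cen L O b A) {X : P} (hX : X ∈ O)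
    (hne : a • X ≠ X) : b • X = a • X := by
  have h1 := ha.mv X hX hne _ (jn_l X (a • X)) (jn_r _ _)
  have hA : A ≠ X := fun e => ha.notMem (e ▸ hX)
  by_cases e : b • X = X
  · exact absurd (h.eq_of_mem_tg hX (h.inv a X hX)
      (line_eq hA h1 (jn_l _ _) (hb.fx X hX e) (h.mem_tg hX) ▸ jn_r X (a • X))) hne
  · have h2 := hb.mv X hX e _ (jn_l X (b • X)) (jn_r _ _)
    exact (h.eq_of_three hX (h.inv a X hX) (h.inv b X hX) (jn_l _ _) (jn_r _ _)
      (line_eq hA h2 (jn_l _ _) h1 (jn_l _ _) ▸ jn_r X (b • X)) hne.symm).resolve_left e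

variable [FaithfulSMul G P]

theorem cen_inj {a b : G} {A : P} (ha : Cen L O a A) (hb : Cen L O b A) : a = b := by
  refine (inv_mul_eq_one.1 (h.eq_one fun X hX => ?_))
  rw [mul_smul, inv_smul_eq_iff]
  by_cases e : a • X = X
  · by_contra e'
    rw [e] at e'
    exact e' ((h.cen_smul_eq hb ha hX e').symm.trans e)
  · exact h.cen_smul_eq ha hb hX e

theorem fo_mul_le {a b : G} {A B : P} (ha : Cen L O a A) (hb : Cen L O b B) (h2 : a * a = 1)
    (hne : a ≠ b) : fo O ({a * b} : Set G) ≤ 2 := by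
  have hAB : A ≠ B := fun e => hne (h.cen_inj ha (e ▸ hb))
  refine le_trans (card_le_card fun X hX => ?_) (h.card_inter (jn L A B))
  rw [mem_filter, fx_single] at hX
  refine mem_filter.2 ⟨hX.1, ?_⟩
  have e : b • X = a • X := by
    rw [← MulAction.injective a |>.eq_iff, ← mul_smul, hX.2, ← mul_smul, h2, one_smul]
  by_cases e' : a • X = X
  · exact line_eq hAB (ha.fx X hX.1 e') (hb.fx X hX.1 (e.trans e')) (jn_l _ _) (jn_r _ _) ▸
      h.mem_tg hX.1
  · exact line_eq hAB (ha.mv X hX.1 e' _ (jn_l X (a • X)) (jn_r _ _))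
      (hb.mv X hX.1 (e ▸ e') _ (jn_l _ _) (e ▸ jn_r _ _)) (jn_l _ _) (jn_r _ _) ▸ jn_l _ _

theorem cen_eq_of_fix {a b : G} {A B : P} (ha : Cen L O a A) (hb : Cen L O b B) {X Y : P}
    (hX : X ∈ O) (hY : Y ∈ O) (hne : X ≠ Y) (a1 : a • X = X) (a2 : a • Y = Y) (b1 : b • X = X)
    (b2 : b • Y = Y) : a = b :=
  h.cen_inj ha (point_eq (h.tg_ne hX hY hne) (ha.fx X hX a1) (hb.fx X hX b1) (ha.fx Y hY a2)
    (hb.fx Y hY b2) ▸ hb)

theorem exists_moved {g : G} (hg : g ≠ 1) : ∃ X ∈ O, g • X ≠ X := by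
  by_contra hc
  push Not at hc
  exact hg (h.eq_one hc)

theorem baer {t : G} (ht : t * t = 1) (h1 : t ≠ 1) (h3 : 3 ≤ fo O ({t} : Set G)) :
    ProjectivePlane.order P L = (fo O ({t} : Set G) - 1) ^ 2 := by
  obtain ⟨X, hX, hne⟩ := h.exists_moved h1
  have := h.fo_ext (ext_empty ht) (by simpa using h3) hX (fx_empty _) hne
  rw [h.fo_empty, insert_empty_eq] at this
  obtain ⟨k, hk⟩ := Nat.exists_eq_add_of_le' (show 1 ≤ fo O ({t} : Set G) by omega)
  rw [hk] at this ⊢
  rw [Nat.add_sub_cancel]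
  nlinarith

/-- A four-group does not consist of Baer involutions. -/
theorem four_baer {x y : G} (hx : x * x = 1) (hy : y * y = 1) (hc : x * y = y * x) (x1 : x ≠ 1)
    (y1 : y ≠ 1) (xy1 : x * y ≠ 1) (f1 : 3 ≤ fo O ({x} : Set G)) (f2 : 3 ≤ fo O ({y} : Set G))
    (f3 : 3 ≤ fo O ({x * y} : Set G)) : False := by
  have key : ∀ g : G, g ≠ 1 → ∃ X ∈ O, Fx (∅ : Set G) X ∧ g • X ≠ X := fun g hg => by
    obtain ⟨X, hX, hne⟩ := h.exists_moved hg
    exact ⟨X, hX, fx_empty _, hne⟩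
  exact h.four (ext_empty hx) (ext_empty hy) (fun p _ => by rw [smul_smul, hc, mul_smul])
    (by simpa using f1) (by simpa using f2) (by simpa using f3) (key x x1) (key y y1) (key _ xy1)

theorem moved_of_sq {x : G} (h4 : x * x * (x * x) = 1) (h1 : x * x ≠ 1)
    (h3 : 3 ≤ fo O ({x * x} : Set G)) : ∃ X ∈ O, Fx ({x * x} : Set G) X ∧ x • X ≠ X := by
  by_contra hc
  push Not at hc
  obtain ⟨X, hX, hne⟩ := h.exists_moved h1
  have hg := h.fx_jn (ext_empty h4) (fx_empty _) hne (jn_l _ _) (jn_r _ _)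
  rw [insert_empty_eq] at hg
  have hg' := h.fx_line_of_fo_le (s' := {x})
    (fun p hp => fx_single.2 (by rw [mul_smul, fx_single.1 hp, fx_single.1 hp]))
    (fun p hp => fx_single.2 (by rw [mul_smul, fx_single.1 hp, fx_single.1 hp])) h3
    (card_le_card fun Y hY => by
      rw [mem_filter] at hY ⊢
      exact ⟨hY.1, fx_single.2 (hc Y hY.1 hY.2)⟩) hg
  rcases h.smul_or hX (h.inv _ X hX) hne.symm (jn_l _ _) (jn_r _ _) (fx_single.1 hg') with e | e
  · exact hne (by rw [mul_smul, e, e])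
  · rw [mul_smul] at e
    have e' := MulAction.injective x e
    exact hne (by rw [mul_smul, ← e', ← e'])

/-- A quaternion group fixes at most two points of the oval. -/
theorem no_q8 {i j z : G} (hz : z * z = 1) (z1 : z ≠ 1) (hi : i * i = z) (hj : j * j = z)
    (hij : j * i = z * (i * j)) (h3 : 3 ≤ fo O ({i, j} : Set G)) : False := by
  have hk : i * j * (i * j) = z := by
    calc i * j * (i * j) = i * (j * i) * j := by group
      _ = i * (i * i) * i * (j * j) := by rw [hij, ← hi]; group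
      _ = z := by rw [hj, show i * (i * i) * i = i * i * (i * i) by group, hi, hz, one_mul]
  have f0 : ∀ g : G, (∀ p : P, i • p = p → j • p = p → g • p = p) → 3 ≤ fo O (insert g {z}) :=
    fun g hg => h3.trans (fo_mono fun p hp => by
      rw [fx_insert, fx_single] at hp ⊢
      exact ⟨hg p hp.1 hp.2, by rw [← hi, mul_smul, hp.1, hp.1]⟩)
  have fz : 3 ≤ fo O ({z} : Set G) := by simpa using f0 z fun p a _ => by rw [← hi, mul_smul, a, a]
  have ext : ∀ g : G, g * g = z → Ext P {z} g := fun g hg => ⟨fun p hp => by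
    rw [fx_single] at hp ⊢
    rw [← hg, smul_smul, mul_assoc, hg, mul_smul, hp], fun p hp => by
      rw [smul_smul, hg, fx_single.1 hp]⟩
  have mv : ∀ g : G, g * g = z → ∃ X ∈ O, Fx ({z} : Set G) X ∧ g • X ≠ X := fun g hg =>
    hg ▸ h.moved_of_sq (by rw [hg, hz]) (by rwa [hg]) (by rwa [hg])
  refine h.four (ext i hi) (ext j hj) (fun p hp => ?_) (f0 i fun _ a _ => a) (f0 j fun _ _ a => a)
    (f0 _ fun p a b => by rw [mul_smul, b, a]) (mv i hi) (mv j hj) (mv _ hk)
  rw [← mul_smul j, hij, mul_smul, mul_smul,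
    fx_single.1 ((ext i hi).mem _ ((ext j hj).mem _ hp))]

/-- An involution without fixed points on the oval in a plane of order `3 mod 4`. -/
theorem exists_hom (h4 : ProjectivePlane.order P L % 4 = 3) {t : G} (ht : t * t = 1)
    (h0 : ∀ X ∈ O, t • X ≠ X) : ∃ (A : P) (l : L), Cen L O t A ∧ Hom t A l := by
  set n := ProjectivePlane.order P L with hn
  have hfx : ∀ X ∈ O, ∀ g : L, X ∈ g → t • X ∈ g → Fx ({t} : Set G) g := fun X hX g a b => by
    simpa using h.fx_jn (ext_empty ht) (fx_empty _) (h0 X hX) a b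
  have hel : ∀ X ∈ O, ∀ g : L, X ∈ g → t • X ∈ g → el L ({t} : Set G) = n + nP P {t} g :=
    fun X hX g a b => by
      have := h.el_ext (ext_empty ht) hX (fx_empty _) (h0 X hX) a b
      rw [nP_empty, insert_empty_eq] at this
      omega
  obtain ⟨X, hX, Y, hY, hYX, hYt⟩ : ∃ X ∈ O, ∃ Y ∈ O, Y ≠ X ∧ Y ≠ t • X := by
    obtain ⟨a, ha, b, hb, c, hc, h1, h2, h3⟩ := two_lt_card.1 (show 2 < #O by rw [h.card]; omega)
    by_cases e : b = t • a
    · exact ⟨a, ha, c, hc, h2.symm, fun e' => h3 (e.trans e'.symm)⟩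
    · exact ⟨a, ha, b, hb, h1.symm, e⟩
  set g := jn L X (t • X)
  set g' := jn L Y (t • Y)
  have hg : Fx ({t} : Set G) g := hfx X hX _ (jn_l _ _) (jn_r _ _)
  have hg' : Fx ({t} : Set G) g' := hfx Y hY _ (jn_l _ _) (jn_r _ _)
  have hgg : g ≠ g' := fun e => by
    rcases h.eq_of_three hX (h.inv t X hX) hY (jn_l _ _) (jn_r X (t • X))
      (show Y ∈ g from e ▸ jn_l _ _) (h0 X hX).symm with e' | e'
    · exact hYX e'
    · exact hYt e'
  set σ := nP P ({t} : Set G) g with hσ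
  have e1 : el L ({t} : Set G) = n + σ := hel X hX _ (jn_l _ _) (jn_r _ _)
  have hσ2 : σ % 2 = 0 := by
    have := card_modEq (T := {p : P | p ∈ g}) (g := t) (fun p hp => by
      simp only [mem_filter, mem_univ, true_and] at hp ⊢
      exact fx_single.1 hg ▸ h.smul_mem t hp) Nat.prime_two fun p _ => by
        rw [pow_two, ht, one_smul]
    rw [card_pts, filter_filter] at this
    have e : σ = #{p : P | p ∈ g ∧ t • p = p} := by simp only [hσ, nP, fx_single]
    unfold Nat.ModEq at this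
    omega
  have hσ1 : 0 < σ := card_pos.2 ⟨mt P g g', by
    simpa using ⟨mt_l _ _, h.fx_point hgg (mt_l _ _) (mt_r _ _) hg hg'⟩⟩
  have nsq : ∀ l : L, Fx ({t} : Set G) l → nP P ({t} : Set G) l = σ →
      ¬ ∀ Z : P, Z ∈ l → Fx ({t} : Set G) Z → nL L ({t} : Set G) Z = σ := fun l hl e hc => by
    have := h.el_of_const hl hc
    obtain ⟨k, hk⟩ : ∃ k, σ = 2 * k + 2 := ⟨σ / 2 - 1, by omega⟩
    rw [e, e1, hk, show 2 * k + 2 - 1 = 2 * k + 1 by omega] at this
    have e2 : n = 4 * (k * k + k) + 1 := by nlinarith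
    omega
  have miss : ∀ Z : P, Fx ({t} : Set G) Z → ∀ W ∈ O, ∀ m : L, W ∈ m → t • W ∈ m → Z ∉ m →
      nL L ({t} : Set G) Z = σ := fun Z hZ W hW m a b c => by
    rw [h.nL_eq_nP hZ (hfx W hW m a b) c]
    have := hel W hW m a b
    omega
  obtain ⟨A, -, hA, hAn⟩ : ∃ A : P, A ∈ g ∧ Fx ({t} : Set G) A ∧ nL L ({t} : Set G) A ≠ σ := by
    by_contra hc
    push Not at hc
    exact nsq g hg rfl hc
  have hAm : ∀ W ∈ O, ∀ m : L, W ∈ m → t • W ∈ m → A ∈ m := fun W hW m a b =>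
    by_contra fun c => hAn (miss A hA W hW m a b c)
  have hZ : ∀ Z : P, Fx ({t} : Set G) Z → Z ≠ A → nL L ({t} : Set G) Z = σ := fun Z hZ hne => by
    by_cases c : Z ∈ g
    · refine miss Z hZ Y hY g' (jn_l _ _) (jn_r _ _) fun c' => hne ?_
      exact point_eq hgg c (hAm X hX g (jn_l _ _) (jn_r _ _)) c' (hAm Y hY g' (jn_l _ _) (jn_r _ _))
    · exact miss Z hZ X hX g (jn_l _ _) (jn_r _ _) c
  have hτ := nL_le (L := L) ({t} : Set G) A
  obtain ⟨l, hl, hAl⟩ : ∃ l : L, Fx ({t} : Set G) l ∧ A ∉ l := by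
    by_contra hc
    push Not at hc
    have : el L ({t} : Set G) ≤ nL L ({t} : Set G) A := card_le_card fun m hm => by
      simp only [mem_filter, mem_univ, true_and] at hm ⊢
      exact ⟨hc m hm, hm⟩
    omega
  have e2 := h.el_of_const hl fun Z a b => hZ Z b fun e => hAl (e ▸ a)
  rw [← h.nL_eq_nP hA hl hAl] at e2
  have e3 := h.el_eq_sum hg
  have hAg : A ∈ ({p : P | p ∈ g ∧ Fx ({t} : Set G) p} : Finset P) := by
    simpa using ⟨hAm X hX g (jn_l _ _) (jn_r _ _), hA⟩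
  rw [← add_sum_erase _ _ hAg, sum_congr rfl (g := fun _ => σ - 1) fun Z a => by
    simp only [mem_erase, mem_filter] at a
    rw [hZ Z a.2.2.2 a.1], sum_const, smul_eq_mul, card_erase_of_mem hAg] at e3
  change _ = 1 + (_ + (σ - 1) * (σ - 1)) at e3
  have hτ1 : 0 < nL L ({t} : Set G) A :=
    card_pos.2 ⟨g, by simpa using ⟨hAm X hX g (jn_l _ _) (jn_r _ _), hg⟩⟩
  have e4 : σ = 2 := by
    obtain ⟨k, hk⟩ : ∃ k, σ = k + 2 := ⟨σ - 2, by omega⟩
    obtain ⟨τ, hτ⟩ : ∃ τ, nL L ({t} : Set G) A = τ + 1 := ⟨_, (Nat.succ_pred_eq_of_pos hτ1).symm⟩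
    rw [e2, hτ, hk, show k + 2 - 1 = k + 1 by omega, Nat.add_sub_cancel] at e3
    rw [hτ, hk] at hAn
    have e5 : k * (τ + 1) = k * (k + 2) := by nlinarith
    rcases Nat.eq_zero_or_pos k with k0 | k0
    · omega
    · exact absurd (Nat.eq_of_mul_eq_mul_left k0 e5) hAn
  have e5 : nL L ({t} : Set G) A = n + 1 := by
    rw [e4] at e1 e2
    omega
  have hln : ∀ m : L, A ∈ m → t • m = m := fun m hm => by
    have := eq_of_subset_of_card_le (s := {l : L | A ∈ l ∧ Fx ({t} : Set G) l}) (t := {l : L | A ∈ l})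
      (fun p hp => by simp only [mem_filter] at hp ⊢; tauto) (by rw [card_lns]; exact e5.ge)
    have h2 : m ∈ ({l : L | A ∈ l} : Finset L) := by simpa using hm
    rw [← this] at h2
    exact fx_single.1 (mem_filter.1 h2).2.2
  have e6 : nP P ({t} : Set G) l = n + 1 := by rw [← h.nL_eq_nP hA hl hAl, e5]
  have hpt : ∀ p : P, p ∈ l → t • p = p := fun p hp => by
    have := eq_of_subset_of_card_le (s := {p : P | p ∈ l ∧ Fx ({t} : Set G) p}) (t := {p : P | p ∈ l})
      (fun p hp => by simp only [mem_filter] at hp ⊢; tauto) (by rw [card_pts]; exact e6.ge)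
    have h2 : p ∈ ({p : P | p ∈ l} : Finset P) := by simpa using hp
    rw [← this] at h2
    exact fx_single.1 (mem_filter.1 h2).2.2
  refine ⟨A, l, ⟨fun hO => h0 A hO (fx_single.1 hA), fun W hW _ => hAm W hW,
    fun W hW e => absurd e (h0 W hW)⟩, hAl, fun p => ⟨fun hp => ?_, ?_⟩, hln⟩
  · by_contra hc
    push Not at hc
    have := hZ p (fx_single.2 hp) hc.1
    rw [h.nL_eq_nP (fx_single.2 hp) hl hc.2] at this
    omega
  · rintro (rfl | hp)
    · exact fx_single.1 hA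
    · exact hpt p hp

end Ov

end H52.Oval
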