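import Mathlib
import Cfsg.Prelude.Def_Classical
import Cfsg.Agent.Lib.Ord.M11

/-!
An element of odd order which is inverted by an involution and centralises two involutions.
-/

set_option autoImplicit false
set_option linter.unusedSectionVars false

namespace H52.Oval

open Matrix Cfsg

/-- The configuration. -/
def Cfg (G : Type*) [Group G] : Prop := ∃ (d a y z : G) (k : ℕ), Odd k ∧ d ^ k = 1 ∧ d ≠ 1 ∧
  a * a = 1 ∧ a * d * (a * d) = 1 ∧ y * y = 1 ∧ y ≠ 1 ∧ z * z = 1 ∧ z ≠ 1 ∧ y ≠ z ∧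
  d * y = y * d ∧ d * z = z * d

variable {G H : Type*} [Group G] [Group H]

theorem ne_of_odd {d : G} {k : ℕ} (hk : Odd k) (dk : d ^ k = 1) (d1 : d ≠ 1) : d * d ≠ 1 := fun e => by
  obtain ⟨m, rfl⟩ := hk
  rw [pow_succ, pow_mul, pow_two, e, one_pow, one_mul] at dk
  exact d1 dk

theorem Cfg.of_hom (f : H →* G) {d a y z : H} {k : ℕ} (hk : Odd k) (dk : d ^ k = 1) (d1 : f d ≠ 1)
    (aa : a * a = 1) (ad : a * d * (a * d) = 1) (yy : y * y = 1) (y1 : f y ≠ 1) (zz : z * z = 1)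
    (z1 : f z ≠ 1) (yz : f (y * z) ≠ 1) (dy : d * y = y * d) (dz : d * z = z * d) : Cfg G :=
  ⟨f d, f a, f y, f z, k, hk, by rw [← map_pow, dk, map_one], d1, by rw [← map_mul, aa, map_one],
    by rw [← map_mul, ← map_mul, ad, map_one], by rw [← map_mul, yy, map_one], y1,
    by rw [← map_mul, zz, map_one], z1, fun e => yz (by rw [map_mul, e, ← map_mul, zz, map_one]),
    by rw [← map_mul, dy, map_mul], by rw [← map_mul, dz, map_mul]⟩

theorem Cfg.of_quot (e : G ≃* H ⧸ Subgroup.center H) {d a y z b : H} {k : ℕ} (hk : Odd k)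
    (dk : d ^ k = 1) (d1 : d ≠ 1) (aa : a * a = 1) (ad : a * d * (a * d) = 1) (yy : y * y = 1)
    (zz : z * z = 1) (dy : d * y = y * d) (dz : d * z = z * d) (y1 : b * y ≠ y * b)
    (z1 : b * z ≠ z * b) (yz : b * (y * z) ≠ y * z * b) : Cfg G := by
  have key : ∀ g c : H, c * g ≠ g * c →
      e.symm.toMonoidHom.comp (QuotientGroup.mk' (Subgroup.center H)) g ≠ 1 := fun g c h1 h2 =>
    h1 (Subgroup.mem_center_iff.1 ((QuotientGroup.eq_one_iff g).1 (e.symm.map_eq_one_iff.1 h2)) c)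
  refine Cfg.of_hom _ hk dk (key d a fun h => ne_of_odd hk dk d1 ?_) aa ad yy (key y b y1) zz
    (key z b z1) (key _ b yz) dy dz
  rwa [mul_assoc, ← mul_assoc d, ← h, ← mul_assoc, ← mul_assoc, aa, one_mul] at ad

theorem Cfg.of_mat (e : G ≃* H ⧸ Subgroup.center H) {M : Type*} [Monoid M] (φ : H →* M)
    (hφ : Function.Injective φ) {d a y z b : M} (hd : ∃ g, φ g = d) (ha : ∃ g, φ g = a)
    (hy : ∃ g, φ g = y) (hz : ∃ g, φ g = z) (hb : ∃ g, φ g = b) {k : ℕ} (hk : Odd k)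
    (dk : d ^ k = 1) (d1 : d ≠ 1) (aa : a * a = 1) (ad : a * d * (a * d) = 1) (yy : y * y = 1)
    (zz : z * z = 1) (dy : d * y = y * d) (dz : d * z = z * d) (y1 : b * y ≠ y * b)
    (z1 : b * z ≠ z * b) (yz : b * (y * z) ≠ y * z * b) : Cfg G := by
  obtain ⟨d, rfl⟩ := hd
  obtain ⟨a, rfl⟩ := ha
  obtain ⟨y, rfl⟩ := hy
  obtain ⟨z, rfl⟩ := hz
  obtain ⟨b, rfl⟩ := hb
  rw [← φ.map_one] at dk d1 aa ad yy zz
  simp only [← map_mul, ← map_pow, ne_eq, hφ.eq_iff] at *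
  exact Cfg.of_quot e hk dk d1 aa ad yy zz dy dz y1 z1 yz

theorem two_ne {F : Type*} [Field F] [Fintype F] (hF : Odd (Fintype.card F)) : (2 : F) ≠ 0 := fun h => by
  have : CharP F 2 := CharTwo.of_one_ne_zero_of_two_eq_zero one_ne_zero h
  exact Nat.not_even_iff_odd.2 hF (Nat.even_iff.2 (FiniteField.even_card_iff_char_two.1
    (ringChar.eq F 2)))

theorem cfg_psl3 {F : Type*} [Field F] [Fintype F] (hF : Odd (Fintype.card F))
    (e : G ≃* ProjectiveSpecialLinearGroup (Fin 3) F) : Cfg G := by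
  have h2 := two_ne hF
  have hx : ∀ n : ℕ, (!![1, 0, 1; 0, 1, 0; 0, 0, 1] : Matrix (Fin 3) (Fin 3) F) ^ n =
      !![1, 0, (n : F); 0, 1, 0; 0, 0, 1] := fun n => by
    induction n with
    | zero => simp [one_fin_three]
    | succ n ih => simp [pow_succ, ih, add_comm]
  have k : ∀ A : Matrix (Fin 3) (Fin 3) F, A.det = 1 → ∃ g, slToMat 3 F g = A := fun A h => ⟨⟨A, h⟩, rfl⟩
  refine Cfg.of_mat e (slToMat 3 F) (fun _ _ h => Subtype.ext h)
    (k !![1, 0, 1; 0, 1, 0; 0, 0, 1] (by simp [det_fin_three]))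
    (k !![1, 0, 0; 0, -1, 0; 0, 0, -1] (by simp [det_fin_three]))
    (k !![-1, 1, 0; 0, 1, 0; 0, 0, -1] (by simp [det_fin_three]))
    (k !![-1, 0, 0; 0, 1, 0; 0, 0, -1] (by simp [det_fin_three]))
    (k !![0, 1, 0; 0, 0, 1; 1, 0, 0] (by simp [det_fin_three])) hF ?_ (fun h => ?_) ?_ ?_ ?_ ?_ ?_ ?_
    (fun h => ?_) (fun h => h2 ?_) (fun h => ?_)
  · rw [hx, FiniteField.cast_card_eq_zero, one_fin_three]
  · simpa using congrFun (congrFun h 0) 2
  iterate 6 simp [one_fin_three]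
  · simpa using congrFun (congrFun h 2) 1
  · have := congrFun (congrFun h 0) 1
    simp at this
    linear_combination this
  · simpa using congrFun (congrFun h 0) 2

theorem cfg_psu3 {F : Type*} [Field F] [Fintype F] {q : ℕ} (hF : Fintype.card F = q ^ 2)
    (hq : q % 4 = 1) (e : G ≃* PSU 3 F q) : Cfg G := by
  classical
  have hq1 : q ≠ 1 := fun h => by
    have := Fintype.one_lt_card (α := F)
    rw [hF, h] at this
    omega
  have ho : Odd q := Nat.odd_iff.2 (by omega)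
  have h2 : (2 : F) ≠ 0 := two_ne (hF ▸ ho.pow)
  obtain ⟨r, hr, h1⟩ := Nat.exists_prime_and_dvd (n := (q + 1) / 2) (by omega)
  have h3 : r ∣ q + 1 := h1.trans (Nat.div_dvd_of_dvd (by omega))
  have : Fact r.Prime := ⟨hr⟩
  obtain ⟨⟨μ, ν, μν, νμ⟩, hμ⟩ := exists_prime_orderOf_dvd_card (G := Fˣ) r (by
    rw [Fintype.card_units, hF, ← one_pow 2, Nat.sq_sub_sq]
    exact h3.mul_right _)
  rw [← orderOf_units] at hμ
  have m1 : μ ^ r = 1 := hμ ▸ pow_orderOf_eq_one μ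
  have n1 : ν ^ r = 1 := by
    have := congrArg (· ^ r) μν
    simpa [mul_pow, m1] using this
  have m2 : ∀ x : F, x ^ r = 1 → x * x ^ q = 1 := fun x h => by
    obtain ⟨l, hl⟩ := h3
    rw [← pow_succ', hl, pow_mul, h, one_pow]
  let φ := (slToMat 3 F).comp (SU 3 F q).subtype
  have k : ∀ A : Matrix (Fin 3) (Fin 3) F, A.det = 1 →
      (∀ u v, hermForm 3 F q (A *ᵥ u) (A *ᵥ v) = hermForm 3 F q u v) → ∃ g, φ g = A :=
    fun A h h' => ⟨⟨⟨A, h⟩, h'⟩, rfl⟩
  have D : ∀ a b c : F, a * a ^ q = 1 → b * b ^ q = 1 → c * c ^ q = 1 → a * b * c = 1 →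
      ∃ g, φ g = !![a, 0, 0; 0, b, 0; 0, 0, c] := fun a b c ha hb hc h =>
    k _ (by simp [det_fin_three, h]) fun u v => by
      simp [hermForm, Fin.sum_univ_three, mulVec, dotProduct, mul_pow]
      linear_combination (u 0 * v 0 ^ q) * ha + (u 1 * v 1 ^ q) * hb + (u 2 * v 2 ^ q) * hc
  have q1 : (-1 : F) * (-1) ^ q = 1 := by rw [ho.neg_one_pow]; simp
  have p1 : (1 : F) * 1 ^ q = 1 := by simp
  have hx : ∀ n : ℕ, (!![μ, 0, 0; 0, ν, 0; 0, 0, 1] : Matrix (Fin 3) (Fin 3) F) ^ n =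
      !![μ ^ n, 0, 0; 0, ν ^ n, 0; 0, 0, 1] := fun n => by
    induction n with
    | zero => simp [one_fin_three]
    | succ n ih => simp [pow_succ, ih]
  refine Cfg.of_mat e φ (fun _ _ h => Subtype.ext (Subtype.ext h))
    (D μ ν 1 (m2 μ m1) (m2 ν n1) p1 (by simp [μν]))
    (k !![0, 1, 0; 1, 0, 0; 0, 0, -1] (by simp [det_fin_three]) fun u v => by
      simp [hermForm, Fin.sum_univ_three, mulVec, dotProduct, ho.neg_pow]
      ring) (D (-1) 1 (-1) q1 p1 q1 (by simp)) (D 1 (-1) (-1) p1 q1 q1 (by simp))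
    (k !![0, 1, 0; 0, 0, 1; 1, 0, 0] (by simp [det_fin_three]) fun u v => by
      simp [hermForm, Fin.sum_univ_three, mulVec, dotProduct]
      ring) (hr.odd_of_ne_two (by rintro rfl; omega)) ?_ (fun h => ?_) ?_ ?_ ?_ ?_ ?_ ?_
    (fun h => h2 ?_) (fun h => h2 ?_) (fun h => h2 ?_)
  · rw [hx, m1, n1, one_fin_three]
  · have := congrFun (congrFun h 0) 0
    simp at this
    simp [this] at hμ
    exact hr.ne_one hμ.symm
  iterate 6 simp [one_fin_three, μν, νμ]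
  · have := congrFun (congrFun h 0) 1
    simp at this
    linear_combination this
  · have := congrFun (congrFun h 0) 1
    simp at this
    linear_combination -this
  · have := congrFun (congrFun h 1) 2
    simp at this
    linear_combination this

theorem cfg_7920 [Finite G] [IsSimpleGroup G] (hG : Nat.card G = 7920) : Cfg G := by
  obtain ⟨ι, h⟩ := H17.Ord.M11.exists_qd3' hG
  have z3 : G48.z ^ 3 = 1 := by decide +kernel
  have z1 : ι G48.z ≠ 1 := fun e => absurd (h.inj (e.trans ι.map_one.symm)) (by decide +kernel)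
  have t1 : ι G48.m1 ≠ 1 := fun e => G48.m1_ne_one (h.inj (e.trans ι.map_one.symm))
  have tt : ι G48.m1 * ι G48.m1 = 1 := by rw [← map_mul, G48.m1_mul_self, map_one]
  have dt : ι G48.z * ι G48.m1 = ι G48.m1 * ι G48.z := by rw [← map_mul, G48.m1_comm, map_mul]
  have : Fact (Nat.Prime 3) := ⟨by norm_num⟩
  obtain ⟨P, h1, h2⟩ := exists_sylow_nine hG (E := Subgroup.zpowers (ι G48.z))
    (IsPGroup.iff_card.2 ⟨1, by
      rw [Nat.card_zpowers, pow_one]
      exact orderOf_eq_prime (by rw [← map_pow, z3, map_one]) z1⟩)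
  obtain ⟨g, g1, g2⟩ : ∃ g ∈ P, g * ι G48.m1 ≠ ι G48.m1 * g := by
    by_contra hc
    push Not at hc
    have := (Subgroup.card_dvd_of_le (show (P : Subgroup G) ≤ ι.range from
      fun g hg => h.cent g (hc g hg))).trans (Subgroup.card_range_dvd ι)
    rw [h2, card_G48] at this
    omega
  have c := commute_of_card_nine h2 (h1 (Subgroup.mem_zpowers _)) g1
  refine ⟨ι G48.z, ι G48.u, g * ι G48.m1 * g⁻¹, ι G48.m1, 3, by decide, by rw [← map_pow, z3, map_one],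
    z1, ?_, ?_, ?_, fun e => t1 (by simpa using e), tt, t1, fun e => g2 (mul_inv_eq_iff_eq_mul.1 e),
    ?_, dt⟩
  · rw [← map_mul, show G48.u * G48.u = 1 by decide +kernel, map_one]
  · rw [← map_mul, ← map_mul, show G48.u * G48.z * (G48.u * G48.z) = 1 by decide +kernel, map_one]
  · rw [show ∀ t : G, g * t * g⁻¹ * (g * t * g⁻¹) = g * (t * t) * g⁻¹ from fun t => by group, tt]
    group
  · exact ((c.mul_right dt).mul_right c.inv_right).eq

theorem exists_alt7 : ∃ d a y z : alternatingGroup (Fin 7), d ^ 3 = 1 ∧ d ≠ 1 ∧ a * a = 1 ∧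
    a * d * (a * d) = 1 ∧ z * z = 1 ∧ z ≠ 1 ∧ y * y = 1 ∧ y ≠ 1 ∧ y ≠ z ∧ y * z = z * y ∧
    d * z = z * d ∧ d * y = y * d ∧ a * z = z * a := by
  refine ⟨⟨Equiv.swap 4 5 * Equiv.swap 5 6, by simp⟩, ⟨Equiv.swap 0 1 * Equiv.swap 4 5, by simp⟩,
    ⟨Equiv.swap 0 2 * Equiv.swap 1 3, by simp⟩, ⟨Equiv.swap 0 1 * Equiv.swap 2 3, by simp⟩, ?_⟩
  simp only [ne_eq, Subtype.ext_iff]
  decide

end H52.Oval
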